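import Cfsg.Agent.H209.IF.Kill
import Cfsg.Agent.H809.IF.EngC
import Cfsg.Agent.H836.Facts
import Cfsg.Agent.H836.Thompson

/-!
# S5719, cell `fi22`, `|A|` even: the three classes of involutions (helper273)

`K = Fi22`, `T` the 3510 transpositions, `E` elementary abelian of order `2^10` with 22 transpositions.

* `one_step` : a transposition `d ∈ A` : `|E : E ∩ A| ≤ 5`, hence a product of two commuting transpositions is in `A`;
* `three_step` : `a b c ∈ A` : `|E : E ∩ A| = 32` and 31 conjugates of `a b c` in `A`, impossible, or a smaller product in `A`;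
* `pair_step` : `a b ∈ A` : `C(a) ∩ C(b) ≤ A` (hypothesis `PairLe`), then `a, b ∈ A` and `|K : A| ≤ 11`.
-/

set_option autoImplicit false
set_option linter.unusedSectionVars false

namespace Cfsg.Agent.H273.IFTwo

open Subgroup Cfsg.Agent.LThreeFi22 Cfsg.Agent.H836 Cfsg.Agent.R01.FiFusion Cfsg.Agent.R01.FiFacts
open Cfsg.Agent.H209.Fxy Cfsg.Agent.H999.IFB Cfsg.Agent.H809.IFC

universe v

variable {K : Type v} [Group K] {T : Set K}

/-! ### Centralizers -/

theorem card_two (C : Ctx K T) {a b : K} (ha : a ∈ T) (hb : b ∈ T) (hne : a ≠ b) (hab : a * b = b * a) :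
    Nat.card ↥(centralizer ({a} : Set K) ⊓ centralizer ({b} : Set K)) = 26542080 := by
  have := C.finite
  have h1 := orbit_card (centralizer ({a} : Set K)) b (S := {c | c ∈ T ∧ c ≠ a ∧ a * c = c * a}) (by
    intro x
    constructor
    · rintro ⟨hx, hxa, hax⟩
      obtain ⟨g, hg1, hg2⟩ := C.transC a ha b hb a ha x hx hne hxa.symm hab hax
      exact ⟨g, mem_centralizer_singleton_iff.2 (mul_inv_eq_iff_eq_mul.1 hg1), hg2.symm⟩
    · rintro ⟨g, hg, rfl⟩
      have h2 : g * a * g⁻¹ = a := mul_inv_eq_iff_eq_mul.2 (mem_centralizer_singleton_iff.1 hg)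
      refine ⟨C.conj b hb g, fun h => hne ?_, ?_⟩
      · have h3 : g * b * g⁻¹ = g * a * g⁻¹ := h.trans h2.symm
        exact (mul_left_cancel (mul_right_cancel h3)).symm
      · have h3 := (conj_comm_iff g a b).2 hab
        rw [h2] at h3
        exact h3)
  rw [C.link a ha, C.card_cent ha] at h1
  omega

theorem card_z (C : Ctx K T) {a b : K} (ha : a ∈ T) (hb : b ∈ T) (hne : a ≠ b) (hab : a * b = b * a) :
    Nat.card ↥(centralizer ({a * b} : Set K)) = 53084160 := by
  have := C.finite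
  have h1 := orbit_card (centralizer ({a * b} : Set K)) a (S := {a, b}) (by
    intro x
    constructor
    · rintro (rfl | hx)
      · exact ⟨1, one_mem _, by group⟩
      · rw [Set.mem_singleton_iff] at hx
        subst hx
        obtain ⟨g, hg1, hg2⟩ := C.transC a ha x hb x hb a ha hne hne.symm hab hab.symm
        refine ⟨g, mem_centralizer_singleton_iff.2 (mul_inv_eq_iff_eq_mul.1 ?_), hg1.symm⟩
        calc g * (a * x) * g⁻¹ = g * a * g⁻¹ * (g * x * g⁻¹) := by group
          _ = a * x := by rw [hg1, hg2, hab]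
    · rintro ⟨h, hh, rfl⟩
      rcases C.cz a ha b hb hne hab h (mem_centralizer_singleton_iff.1 hh) with ⟨h2, -⟩ | ⟨h2, -⟩
      · exact Or.inl (mul_inv_eq_iff_eq_mul.2 h2)
      · exact Or.inr h2)
  have h2 : centralizer ({a * b} : Set K) ⊓ centralizer ({a} : Set K) =
      centralizer ({a} : Set K) ⊓ centralizer ({b} : Set K) := by
    ext x
    rw [mem_inf, mem_inf, mem_centralizer_singleton_iff, mem_centralizer_singleton_iff, mem_centralizer_singleton_iff]
    constructor
    · rintro ⟨h3, h4⟩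
      refine ⟨h4, ?_⟩
      have h5 : a * (x * b) = a * (b * x) := by
        rw [← mul_assoc, ← h4, mul_assoc, h3, mul_assoc]
      exact mul_left_cancel h5
    · rintro ⟨h3, h4⟩
      refine ⟨?_, h3⟩
      rw [← mul_assoc, h3, mul_assoc, h4, mul_assoc]
  rw [h2, card_two C ha hb hne hab, Set.ncard_pair hne] at h1
  omega

/-- orbits of a subgroup by conjugation, upper bound -/
theorem orbit_le [Finite K] (H : Subgroup K) (t : K) {S : Set K} (hS : ∀ h ∈ H, h * t * h⁻¹ ∈ S) :
    Nat.card ↥H ≤ S.ncard * Nat.card ↥(H ⊓ centralizer ({t} : Set K)) := by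
  rw [← orbit_card H t (S := {x | ∃ h ∈ H, x = h * t * h⁻¹}) (fun x => Iff.rfl)]
  apply Nat.mul_le_mul_right
  apply Set.ncard_le_ncard _ (Set.toFinite _)
  rintro x ⟨h, hh, rfl⟩
  exact hS h hh

/-- 180 transpositions commute with two commuting ones -/
def Lam (T : Set K) : Prop := ∀ a ∈ T, ∀ b ∈ T, a ≠ b → a * b = b * a →
  {c | c ∈ T ∧ c ≠ a ∧ c ≠ b ∧ a * c = c * a ∧ b * c = c * b}.ncard = 180

theorem card_three (C : Ctx K T) (hl : Lam T) {a b c : K} (h : Tri T a b c) :
    147456 ≤ Nat.card ↥(centralizer ({a * b * c} : Set K)) := by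
  have := C.finite
  have h1 := orbit_le (centralizer ({a} : Set K) ⊓ centralizer ({b} : Set K)) c
    (S := {c | c ∈ T ∧ c ≠ a ∧ c ≠ b ∧ a * c = c * a ∧ b * c = c * b}) (by
      rintro g ⟨hga, hgb⟩
      have h2 : g * a * g⁻¹ = a := mul_inv_eq_iff_eq_mul.2 (mem_centralizer_singleton_iff.1 hga)
      have h3 : g * b * g⁻¹ = b := mul_inv_eq_iff_eq_mul.2 (mem_centralizer_singleton_iff.1 hgb)
      refine ⟨C.conj c h.mw g, fun h4 => h.xw ?_, fun h4 => h.yw ?_, ?_, ?_⟩
      · have h5 : g * c * g⁻¹ = g * a * g⁻¹ := h4.trans h2.symm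
        exact (mul_left_cancel (mul_right_cancel h5)).symm
      · have h5 : g * c * g⁻¹ = g * b * g⁻¹ := h4.trans h3.symm
        exact (mul_left_cancel (mul_right_cancel h5)).symm
      · have h5 := (conj_comm_iff g a c).2 h.cxw
        rwa [h2] at h5
      · have h5 := (conj_comm_iff g b c).2 h.cyw
        rwa [h3] at h5)
  rw [hl a h.mx b h.my h.xy h.cxy, card_two C h.mx h.my h.xy h.cxy] at h1
  have h2 : centralizer ({a} : Set K) ⊓ centralizer ({b} : Set K) ⊓ centralizer ({c} : Set K) ≤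
      centralizer ({a * b * c} : Set K) := by
    rintro x ⟨⟨hxa, hxb⟩, hxc⟩
    have e1 := mem_centralizer_singleton_iff.1 hxa
    have e2 := mem_centralizer_singleton_iff.1 hxb
    have e3 := mem_centralizer_singleton_iff.1 hxc
    rw [mem_centralizer_singleton_iff]
    calc x * (a * b * c) = x * a * b * c := by group
      _ = a * (x * b) * c := by rw [e1]; group
      _ = a * b * (x * c) := by rw [e2]; group
      _ = a * b * c * x := by rw [e3]; group
  have h3 := Subgroup.card_le_of_le h2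
  omega

/-! ### The elementary abelian subgroups -/

/-- the properties of `E` -/
structure EP (T : Set K) (E : Subgroup K) : Prop where
  sq : ∀ x ∈ E, x * x = 1
  card : Nat.card ↥E = 1024
  ncard : {x | x ∈ E ∧ x ∈ T}.ncard = 22

theorem EP.comm {E : Subgroup K} (h : EP T E) {x y : K} (hx : x ∈ E) (hy : y ∈ E) : x * y = y * x := by
  have h1 := h.sq _ hx
  have h2 := h.sq _ hy
  have h3 := h.sq _ (E.mul_mem hx hy)
  have e1 : x⁻¹ = x := inv_eq_of_mul_eq_one_left h1
  have e2 : y⁻¹ = y := inv_eq_of_mul_eq_one_left h2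
  have e3 : (x * y)⁻¹ = x * y := inv_eq_of_mul_eq_one_left h3
  rw [← e3, mul_inv_rev, e1, e2]

theorem EP.conj (C : Ctx K T) {E : Subgroup K} (h : EP T E) (g : K) :
    EP T (E.map (MulAut.conj g).toMonoidHom) := by
  have hmem : ∀ x, x ∈ E ↔ g * x * g⁻¹ ∈ E.map (MulAut.conj g).toMonoidHom := by
    intro x
    constructor
    · intro hx
      exact ⟨x, hx, rfl⟩
    · rintro ⟨y, hy, hxy⟩
      have h1 : g * y * g⁻¹ = g * x * g⁻¹ := hxy
      rwa [← mul_left_cancel (mul_right_cancel h1)]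
  refine ⟨?_, ?_, ?_⟩
  · rintro _ ⟨x, hx, rfl⟩
    rw [← map_mul, h.sq x hx, map_one]
  · rw [← h.card]
    exact (Nat.card_congr (E.equivMapOfInjective _ (MulAut.conj g).injective).toEquiv).symm
  · rw [← h.ncard]
    have := C.finite
    exact (ncard_conj g (fun x => by
      rw [Set.mem_ofPred_eq, Set.mem_ofPred_eq, ← hmem, C.conj_iff])).symm

/-- the group `E` contains a given transposition -/
theorem exists_one (C : Ctx K T) {E : Subgroup K} (h : EP T E) {d : K} (hd : d ∈ T) :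
    ∃ E' : Subgroup K, EP T E' ∧ d ∈ E' := by
  have hne : ({x | x ∈ E ∧ x ∈ T} : Set K).Nonempty := by
    apply Set.nonempty_of_ncard_ne_zero
    rw [h.ncard]
    norm_num
  obtain ⟨x, hx, hxT⟩ := hne
  obtain ⟨g, hg⟩ := C.trans_one hxT hd
  exact ⟨_, h.conj C g, x, hx, hg⟩

/-- the group `E` contains a given triple -/
theorem exists_three (I : Inv K T) {E : Subgroup K} (h : EP T E) {a b c : K} (ht : Tri T a b c) :
    ∃ E' : Subgroup K, EP T E' ∧ a ∈ E' ∧ b ∈ E' ∧ c ∈ E' := by
  have := I.ctx.finite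
  have h3 : 2 < ({x | x ∈ E ∧ x ∈ T} : Set K).ncard := by
    rw [h.ncard]
    norm_num
  rw [Set.two_lt_ncard_iff (Set.toFinite _)] at h3
  obtain ⟨x, y, w, ⟨hx, hxT⟩, ⟨hy, hyT⟩, ⟨hw, hwT⟩, hxy, hxw, hyw⟩ := h3
  obtain ⟨g, h1, h2, h3⟩ := I.facts.tri x y w a b c
    ⟨hxT, hyT, hwT, hxy, hxw, hyw, h.comm hx hy, h.comm hx hw, h.comm hy hw⟩ ht
  exact ⟨_, h.conj I.ctx g, ⟨x, hx, h1⟩, ⟨y, hy, h2⟩, ⟨w, hw, h3⟩⟩

/-- fewer than 22 cosets of `A` in `E` : a product of two transpositions in `A` -/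
theorem exists_pair [Finite K] {E : Subgroup K} (h : EP T E) {A : Subgroup K} (hA : A.relIndex E < 22) :
    ∃ a ∈ T, ∃ b ∈ T, a ≠ b ∧ a * b = b * a ∧ a * b ∈ A := by
  by_contra hcon
  have hinj : Function.Injective (fun x : ({x | x ∈ E ∧ x ∈ T} : Set K) =>
      ((⟨x, x.2.1⟩ : ↥E) : ↥E ⧸ A.subgroupOf E)) := by
    intro x y hxy
    have h1 : (⟨(x : K), x.2.1⟩ : ↥E)⁻¹ * ⟨(y : K), y.2.1⟩ ∈ A.subgroupOf E := QuotientGroup.eq.1 hxy
    have h2 : (x : K)⁻¹ * y ∈ A := mem_subgroupOf.1 h1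
    by_contra hne
    apply hcon
    refine ⟨x, x.2.2, y, y.2.2, fun h3 => hne (Subtype.ext h3), h.comm x.2.1 y.2.1, ?_⟩
    rwa [inv_eq_of_mul_eq_one_left (h.sq _ x.2.1)] at h2
  have h1 := Nat.card_le_card_of_injective _ hinj
  have h2 : Nat.card ({x | x ∈ E ∧ x ∈ T} : Set K) = 22 := h.ncard
  rw [h2] at h1
  exact absurd hA (not_lt.2 h1)

/-! ### The steps -/

theorem hna (C : Ctx K T) : ∃ a b : K, a * b ≠ b * a := by
  obtain ⟨a, -, b, -, -, -, h, -⟩ := C.mupos
  exact ⟨a, b, h⟩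

theorem index_cent (C : Ctx K T) {a : K} (ha : a ∈ T) : (centralizer ({a} : Set K)).index = 3510 := by
  have := C.finite
  have h1 := (centralizer ({a} : Set K)).index_mul_card
  rw [C.card_cent ha, C.card] at h1
  omega

theorem order_two {t : K} (h1 : t * t = 1) (h2 : t ≠ 1) : orderOf t = 2 := by
  have : Fact (Nat.Prime 2) := ⟨Nat.prime_two⟩
  exact orderOf_eq_prime (by rw [pow_two, h1]) h2

variable {A : Subgroup K} {Γ : Subgroup (MulAut K)}

/-- **A transposition in `A`.** -/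
theorem one_step [IsSimpleGroup K] (C : Ctx K T) {E : Subgroup K} (hE : EP T E) (h : IF A Γ) {d : K} (hd : d ∈ T)
    (hdA : d ∈ A) : ∃ a ∈ T, ∃ b ∈ T, a ≠ b ∧ a * b = b * a ∧ a * b ∈ A := by
  have := C.finite
  obtain ⟨E', hE', hdE⟩ := exists_one C hE hd
  have h1 := (IF.E2' h (hna C) hdA (order_two (C.sq d hd) (C.ne1 d hd))).2.2.2.2 E' (fun x hx =>
    mem_centralizer_singleton_iff.2 (hE'.comm hx hdE))
  rw [index_cent C hd] at h1
  apply exists_pair hE'
  by_contra hcon
  have h2 : 22 ^ 5 ≤ A.relIndex E' ^ 5 := Nat.pow_le_pow_left (by omega) 5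
  have h3 := h1.1
  norm_num at h2
  omega

/-- the hypothesis on the product of two commuting transpositions -/
def PairLe (T : Set K) : Prop := ∀ a b : K, a ∈ T → b ∈ T → a ≠ b → a * b = b * a → ∀ A : Subgroup K, a * b ∈ A →
  A.relIndex (centralizer {a} ⊓ centralizer {b}) ≤ 16 → centralizer {a} ⊓ centralizer {b} ≤ A

/-- **No product of two commuting transpositions is in `A`.** -/
theorem pair_step [IsSimpleGroup K] (C : Ctx K T) (hP : PairLe T) (h : IF A Γ) {a b : K} (ha : a ∈ T) (hb : b ∈ T)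
    (hab : a ≠ b) (cab : a * b = b * a) (hA : a * b ∈ A) : False := by
  have := C.finite
  have haa := C.sq a ha
  have hbb := C.sq b hb
  have hz2 : orderOf (a * b) = 2 := by
    apply order_two
    · calc a * b * (a * b) = a * (b * a) * b := by group
        _ = (a * a) * (b * b) := by rw [← cab]; group
        _ = 1 := by rw [haa, hbb, one_mul]
    · intro h1
      apply hab
      rw [eq_inv_of_mul_eq_one_left h1, C.inv hb]
  have hidx : (centralizer ({a * b} : Set K)).index = 1216215 := by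
    have h1 := (centralizer ({a * b} : Set K)).index_mul_card
    rw [card_z C ha hb hab cab, C.card] at h1
    omega
  have h1 := (IF.E2' h (hna C) hA hz2).2.2.2.2 (centralizer {a} ⊓ centralizer {b}) (by
    rintro x ⟨hxa, hxb⟩
    have e1 := mem_centralizer_singleton_iff.1 hxa
    have e2 := mem_centralizer_singleton_iff.1 hxb
    rw [mem_centralizer_singleton_iff]
    calc x * (a * b) = x * a * b := by group
      _ = a * (x * b) := by rw [e1]; group
      _ = a * b * x := by rw [e2]; group)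
  rw [hidx] at h1
  have h2 : A.relIndex (centralizer {a} ⊓ centralizer {b}) ≤ 16 := by
    by_contra hcon
    have h3 : 17 ^ 5 ≤ A.relIndex (centralizer {a} ⊓ centralizer {b}) ^ 5 := Nat.pow_le_pow_left (by omega) 5
    have h4 := h1.1
    norm_num at h3
    omega
  have h3 := hP a b ha hb hab cab A hA h2
  have haA : a ∈ A := h3 ⟨mem_centralizer_singleton_iff.2 rfl, mem_centralizer_singleton_iff.2 cab⟩
  have hbA : b ∈ A := h3 ⟨mem_centralizer_singleton_iff.2 cab.symm, mem_centralizer_singleton_iff.2 rfl⟩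
  have h4 := (IF.E4 h (hna C) haA hbA (order_two haa (C.ne1 a ha)) (order_two hbb (C.ne1 b hb)) hab cab).2.1
  rw [index_cent C ha] at h4
  have h5 : (centralizer ({a} : Set K)).relIndex (centralizer ({b} : Set K)) = 693 := by
    have h6 := ((centralizer ({a} : Set K)).subgroupOf (centralizer ({b} : Set K))).index_mul_card
    have h7 : Nat.card ↥((centralizer ({a} : Set K)).subgroupOf (centralizer ({b} : Set K))) = 26542080 := by
      rw [← card_two C ha hb hab cab, ← Subgroup.inf_subgroupOf_right,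
        Nat.card_congr (Subgroup.subgroupOfEquivOfLe inf_le_right).toEquiv]
    rw [h7, C.card_cent hb] at h6
    rw [relIndex]
    omega
  rw [h5] at h4
  have h6 := h.big
  have h7 : 730 ^ 2 ≤ A.index ^ 2 := Nat.pow_le_pow_left (by omega) 2
  norm_num at h4 h7
  omega

theorem conj_inj [IsSimpleGroup K] [Finite K] (hna : ∃ a b : K, a * b ≠ b * a) :
    Function.Injective (MulAut.conj : K →* MulAut K) := by
  rw [injective_iff_map_eq_one]
  intro z hz
  apply center_of hna
  intro x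
  have h3 := congrArg (fun τ : MulAut K => τ x) hz
  simp only [MulAut.conj_apply, MulAut.one_apply] at h3
  rwa [mul_inv_eq_iff_eq_mul] at h3

/-- **A product of three commuting transpositions in `A`.** -/
theorem three_step [IsSimpleGroup K] (I : Inv K T) (hl : Lam T) {E : Subgroup K} (hE : EP T E) (h : IF A Γ) {a b c : K}
    (ht : Tri T a b c) (htA : a * b * c ∈ A) :
    (∃ d ∈ T, d ∈ A) ∨ ∃ a ∈ T, ∃ b ∈ T, a ≠ b ∧ a * b = b * a ∧ a * b ∈ A := by
  have C := I.ctx
  have := C.finite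
  by_contra hcon
  rw [not_or] at hcon
  obtain ⟨hc1, hc2⟩ := hcon
  obtain ⟨E', hE', haE, hbE, hcE⟩ := exists_three I hE ht
  have htE : a * b * c ∈ E' := E'.mul_mem (E'.mul_mem haE hbE) hcE
  have t1 : a * b * c ≠ 1 := by
    intro h1
    apply I.facts.two a ht.mx b ht.my ht.xy ht.cxy
    rw [eq_inv_of_mul_eq_one_left h1, C.inv ht.mw]
    exact ht.mw
  have ho := order_two (hE'.sq _ htE) t1
  obtain ⟨ho', hidx, hf5, -, -⟩ := IF.E2' h (hna C) htA ho
  have hle : (centralizer ({a * b * c} : Set K)).index ≤ 437837400 := by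
    have h1 := (centralizer ({a * b * c} : Set K)).index_mul_card
    have h2 := card_three C hl ht
    rw [C.card] at h1
    by_contra hcon
    have h3 : 437837401 * 147456 ≤ (centralizer ({a * b * c} : Set K)).index *
        Nat.card ↥(centralizer ({a * b * c} : Set K)) := Nat.mul_le_mul (by omega) h2
    omega
  have hσ : MulAut.conj (a * b * c) ∈ Γ := (h.conj _).2 htA
  have hr1 := (IF.E1 h hσ ho' (B := E') (by
    intro x hx
    rw [MulAut.conj_apply, mul_inv_eq_iff_eq_mul]
    exact hE'.comm htE hx)).1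
  have hr22 : 22 ≤ A.relIndex E' := by
    by_contra hlt
    exact hc2 (exists_pair hE' (not_le.1 hlt))
  have hr53 : A.relIndex E' ≤ 53 := by
    by_contra hlt
    have h3 : 459165024 ≤ fx A (MulAut.conj (a * b * c)) ^ 5 :=
      (show 459165024 ≤ 54 ^ 5 by norm_num).trans (Nat.pow_le_pow_left (by omega) 5)
    omega
  have hcm := (A.subgroupOf E').index_mul_card
  rw [hE'.card] at hcm
  have hr32 : A.relIndex E' = 32 := by
    have hdvd : A.relIndex E' ∣ 2 ^ 10 := ⟨_, hcm.symm⟩
    obtain ⟨k, hk, hk'⟩ := (Nat.dvd_prime_pow Nat.prime_two).1 hdvd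
    rw [hk'] at hr22 hr53 ⊢
    interval_cases k <;> omega
  have hcard : Nat.card ↥(A ⊓ E') = 32 := by
    have h1 : Nat.card ↥(A.subgroupOf E') = Nat.card ↥(A ⊓ E') := by
      rw [← Subgroup.inf_subgroupOf_right, Nat.card_congr (Subgroup.subgroupOfEquivOfLe inf_le_right).toEquiv]
    rw [← h1]
    have h2 : (A.subgroupOf E').index = 32 := hr32
    rw [h2] at hcm
    omega
  have hX : ({x | x ∈ A ⊓ E' ∧ x ≠ 1} : Set K).ncard = 31 := by
    have h1 : ({x | x ∈ A ⊓ E' ∧ x ≠ 1} : Set K) = ((A ⊓ E' : Subgroup K) : Set K) \ {1} := by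
      ext x
      simp
    rw [h1, Set.ncard_sdiff_singleton_of_mem (A ⊓ E').one_mem]
    have h2 : ((A ⊓ E' : Subgroup K) : Set K).ncard = 32 := hcard
    rw [h2]
  have hi : 31 ≤ (icl (MulAut.conj (a * b * c)) ∩ (Γ : Set (MulAut K))).ncard := by
    rw [← hX]
    refine Set.ncard_le_ncard_of_injOn (MulAut.conj : K →* MulAut K) ?_ ((conj_inj (hna C)).injOn) (Set.toFinite _)
    rintro x ⟨⟨hxA, hxE⟩, hx1⟩
    refine ⟨?_, (h.conj x).2 hxA⟩
    rcases I.inv x (hE'.sq x hxE) with h1 | h1 | ⟨u, hu, v, hv, huv, cuv, rfl⟩ | ⟨u, v, w, hT, rfl⟩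
    · exact absurd h1 hx1
    · exact absurd ⟨x, h1, hxA⟩ hc1
    · exact absurd ⟨u, hu, v, hv, huv, cuv, hxA⟩ hc2
    · obtain ⟨g, rfl, rfl, rfl⟩ := I.facts.tri a b c u v w ht hT
      refine ⟨g, ?_⟩
      rw [← map_inv, ← map_mul, ← map_mul]
      congr 1
      group
  have hf := IF.fix_formula' h hσ
  have hs := h.small _ hσ ho'
  rw [hidx] at hf
  have h1 : fx A (MulAut.conj (a * b * c)) * (31 * fx A (MulAut.conj (a * b * c)) ^ 5) <
      fx A (MulAut.conj (a * b * c)) * (centralizer ({a * b * c} : Set K)).index := by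
    calc fx A (MulAut.conj (a * b * c)) * (31 * fx A (MulAut.conj (a * b * c)) ^ 5)
        = fx A (MulAut.conj (a * b * c)) ^ 6 * 31 := by ring
      _ < A.index * 31 := Nat.mul_lt_mul_of_pos_right hs (by norm_num)
      _ ≤ A.index * (icl (MulAut.conj (a * b * c)) ∩ (Γ : Set (MulAut K))).ncard := Nat.mul_le_mul_left _ hi
      _ = _ := hf.symm
  have h2 := lt_of_mul_lt_mul_left h1 (Nat.zero_le _)
  have h3 : 33554432 ≤ fx A (MulAut.conj (a * b * c)) ^ 5 :=
    (show 33554432 ≤ 32 ^ 5 by norm_num).trans (Nat.pow_le_pow_left (by omega) 5)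
  omega

/-- **`KillE`, abstract form.** -/
theorem killE (I : Inv K T) (hs : IsSimpleGroup K) (hl : Lam T) {E : Subgroup K} (hE : EP T E) (hP : PairLe T) :
    KillE K := by
  rintro A Γ h ⟨t, htA, ht2⟩
  have C := I.ctx
  have key : ¬ ∃ a ∈ T, ∃ b ∈ T, a ≠ b ∧ a * b = b * a ∧ a * b ∈ A := by
    rintro ⟨a, ha, b, hb, hab, cab, hA⟩
    exact pair_step C hP h ha hb hab cab hA
  have key' : ¬ ∃ d ∈ T, d ∈ A := by
    rintro ⟨d, hd, hdA⟩
    exact key (one_step C hE h hd hdA)
  have htt : t * t = 1 := by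
    have h1 := pow_orderOf_eq_one t
    rwa [ht2, pow_two] at h1
  rcases I.inv t htt with rfl | h1 | ⟨u, hu, v, hv, huv, cuv, rfl⟩ | ⟨u, v, w, hT, rfl⟩
  · rw [orderOf_one] at ht2
    omega
  · exact key' ⟨t, h1, htA⟩
  · exact key ⟨u, hu, v, hv, huv, cuv, htA⟩
  · rcases three_step I hl hE h hT htA with h1 | h1
    · exact key' h1
    · exact key h1

end Cfsg.Agent.H273.IFTwo
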